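import Cfsg.Agent.H79.RIM.NegB
import Cfsg.Agent.H491.RIM.Chain
import Cfsg.Agent.H643.RIM.WRev
import Cfsg.Agent.H643.RIM.Wrap

/-!
# The main case of the root group data of type `B_m`, `m ≥ 3` (S4816, helper79)

`nb_mainB` : `S` a finite group with a root group datum of type `B_m`, `m ≥ 3`, `J` all the nodes but the last one,
`p ∣ |S : P_J| ∏ (q^(i+1) - 1)`: the central extensions of `S` have irreducible characters of degree divisible by `p` over
each faithful linear character of the kernel.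
-/

set_option autoImplicit false
set_option linter.unusedSectionVars false

open scoped ComplexConjugate

namespace Cfsg.Agent.H79.RIM

open Cfsg Cfsg.Agent.Characters CoxeterSystem Cfsg.Agent.ChevalleyStructure.CoxeterGeom Cfsg.Agent.Tits.Roots
  Cfsg.Agent.Tits.Core Cfsg.Agent.Tits.Exchange Cfsg.Agent.Nodes.Reps Cfsg.Agent.Nodes.BNOf Cfsg.Agent.Nodes.StabComb
  Cfsg.Agent.Nodes.Bruhat Cfsg.Agent.Nodes.OppDec Cfsg.Agent.Nodes.LeviDec Cfsg.Agent.Nodes.RGDLift Cfsg.Agent.H53.HC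
open Cfsg.Agent.LieRecognition.BNCox (cA cA_apply)
open Cfsg.Agent.LieRecognition.CoxClass (mA)
open Cfsg.Agent.H643.RIM (GG_lift index_PJ charDegree_cast)
open Cfsg.Agent.H665.RIM (NB)

universe u

/-- the nodes `0, …, l - 1` of `B_{l+1}` -/
def kc (l : ℕ) : Fin l ↪ Fin (l + 1) := Fin.castSuccEmb

theorem kc_val {l : ℕ} (i : Fin l) : (kc l i : ℕ) = i := rfl

theorem kc_M {l : ℕ} (i j : Fin l) : CoxeterMatrix.B (l + 1) (kc l i) (kc l j) = cA l i j := by
  by_cases hij : i = j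
  · subst hij
    rw [CoxeterMatrix.diagonal, CoxeterMatrix.diagonal]
  · have hne : kc l i ≠ kc l j := fun e => hij ((kc l).injective e)
    rw [H965.XZ.B_ne hne, cA_apply]
    unfold mA
    have h1 := i.2
    have h2 := j.2
    have h3 : (i : ℕ) ≠ j := fun e => hij (Fin.ext e)
    rw [kc_val, kc_val, if_neg (by omega), if_neg h3]
    by_cases h4 : (j : ℕ) + 1 = i ∨ (i : ℕ) + 1 = j
    · rw [if_pos h4, if_pos (by omega)]
    · rw [if_neg h4, if_neg (by omega)]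

theorem range_kc (l : ℕ) : Set.range (kc l) = {j : Fin (l + 1) | (j : ℕ) + 1 ≠ l + 1} := by
  ext j
  constructor
  · rintro ⟨i, rfl⟩
    have := i.2
    show (kc l i : ℕ) + 1 ≠ l + 1
    rw [kc_val]
    omega
  · intro hj
    have h1 : (j : ℕ) + 1 ≠ l + 1 := hj
    have h2 := j.2
    exact ⟨⟨j, by omega⟩, Fin.ext rfl⟩

theorem mem_kc {l : ℕ} (i : Fin (l + 1)) : i ∈ Set.range (kc l) ↔ i ≠ Fin.last l := by
  rw [range_kc]
  have h2 := i.2
  constructor
  · intro h e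
    apply h
    rw [e, Fin.val_last]
  · intro h e
    exact h (Fin.ext (by rw [Fin.val_last]; omega))

theorem oneChain_kc {l : ℕ} (hl : 2 ≤ l) : H643.RIM.OneChain (CoxeterMatrix.B (l + 1)) (Set.range (kc l)) (kc l) :=
  ⟨fun i => ⟨i, rfl⟩, kc_M, fun _ ha hk => absurd ha hk, fun _ hk' _ => ⟨⟨0, by omega⟩, hk' _⟩⟩

theorem nb_mainB {l : ℕ} {W : Type*} {S : Type u} [Group W] [Group S] [Finite W] [Finite S] {r : ℕ} [Fact r.Prime]
    {cs : CoxeterSystem (CoxeterMatrix.B (l + 1)) W} {A : Fin (l + 1) → Fin (l + 1) → ℤ}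
    {h : IsCartan (CoxeterMatrix.B (l + 1)) A} {T : Subgroup S} {n : Fin (l + 1) → S}
    {X : (Fin (l + 1) → ℤ) → Subgroup S} (hl : 2 ≤ l) (R : RGD cs h r T n X) (hG : GG cs h T X = ⊤) {p c q : ℕ}
    (hc : ¬ r ∣ c) (hq : ∀ i : Fin (l + 1), (i : ℕ) + 1 < l + 1 → Nat.card (X (sr i)) = q)
    (hd : p ∣ (PJ cs h T X {j | (j : ℕ) + 1 ≠ l + 1}).index * ∏ i ∈ Finset.range l, (q ^ (i + 1) - 1)) : NB p c S := by
  classical
  intro E _ _ π hs hcen hcomm hcard l₀ hl₀
  have hk : (Nat.card π.ker).Coprime r := by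
    rw [hcard]
    exact (((Fact.out : r.Prime).coprime_iff_not_dvd).2 hc).symm
  have : Fintype E := Fintype.ofFinite E
  obtain ⟨n', hn'⟩ : ∃ n' : Fin (l + 1) → E, ∀ i, π (n' i) = n i := by
    choose n' hn' using fun i => hs (n i)
    exact ⟨n', hn'⟩
  have R' := rgd_lift hcen hk hs R hn'
  have hG' := GG_lift hcen hk hs R hG
  have hZT : π.ker ≤ T.comap π := fun z hz => show π z ∈ T by rw [MonoidHom.mem_ker.1 hz]; exact one_mem _
  obtain ⟨w₀, hw₀⟩ := exists_neg (cs := cs) (h := h) (by omega)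
  have hsz : Nat.card ↥(lft r π (X (sr (kc l ⟨0, by omega⟩)))) = q := by
    rw [H643.RIM.card_lft_eq hcen hk hs (R.pgrp' (isRoot_sr cs h _))]
    exact hq _ (by rw [kc_val]; simp only; omega)
  obtain ⟨χ, hχ, ⟨a, ha, hχ1⟩, hχl⟩ := H491.RIM.exists_irr_chain R' hG' hl (kc l) kc_M ⟨0, by omega⟩ hsz hcen hZT l₀
    (fun w hw hp => H643.RIM.reverse_of_neg mem_kc (oneChain_kc hl) hl hw₀ hp hw)
  refine ⟨χ, hχ, fun z => hχl z z.2, ?_⟩
  rw [index_PJ hcen hk hs R] at hχ1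
  have h1 : ((charDegree χ : ℕ) : ℂ) = (((PJ cs h T X (Set.range (kc l))).index *
      (a * ∏ i ∈ Finset.range l, (q ^ (i + 1) - 1)) : ℕ) : ℂ) := by
    rw [charDegree_cast hχ, hχ1, Nat.cast_mul, Nat.cast_mul]
  have h2 : charDegree χ = _ := Nat.cast_injective h1
  rw [h2, range_kc]
  rw [show ∀ x y z : ℕ, x * (y * z) = y * (x * z) from fun x y z => by ring]
  exact Dvd.dvd.mul_left hd _

end Cfsg.Agent.H79.RIM
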