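import Cfsg.Agent.H53.HC.WPerm
import Cfsg.Agent.H965.XZ.IdxB

/-!
# The Weyl group of type `B_m`, `m ≥ 3`, contains `-1` (helper79)

* `exists_opp` : an element `w` of a finite Weyl group and a map `σ` with `w α_i = -α_{σ i}`;
* `exists_neg` : type `B_m`, `m ≥ 3`.
-/

set_option autoImplicit false
set_option linter.unusedSectionVars false

namespace Cfsg.Agent.H79.RIM

open CoxeterSystem Cfsg.Agent.ChevalleyStructure.CoxeterGeom Cfsg.Agent.Tits.Roots Cfsg.Agent.Tits.Core
  Cfsg.Agent.Tits.Exchange Cfsg.Agent.Nodes.Reps Cfsg.Agent.Nodes.BNOf Cfsg.Agent.Nodes.StabComb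
  Cfsg.Agent.H53.HC Cfsg.Agent.H965.XZ

section opp

variable {I W : Type*} [Fintype I] [DecidableEq I] [Group W] {M : CoxeterMatrix I}
  {cs : CoxeterSystem M W} {A : I → I → ℤ} {h : IsCartan M A}

theorem exists_opp [Finite W] (cs : CoxeterSystem M W) (h : IsCartan M A) :
    ∃ (w : W) (σ : I → I), ∀ i, rep cs h w (sr i) = -sr (σ i) := by
  obtain ⟨w, hw⟩ := RGD.exists_inv_eq_pos (cs := cs) (h := h)
  have h1 : ∀ x, IsRoot cs h x → 0 ≤ x → rep cs h w⁻¹ x ≤ 0 := by
    intro x hx hx0
    have : x ∈ RGD.Inv cs h w := by rw [hw]; exact ⟨hx, hx0⟩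
    exact this.2.2
  have h2 : ∀ x, IsRoot cs h x → 0 ≤ x → rep cs h w x ≤ 0 := by
    intro x hx hx0
    rcases (hx.act w).pos_or_neg with h3 | h3
    · exfalso
      have h4 := h1 _ (hx.act w) h3
      rw [rep_inv_apply] at h4
      exact hx.not_pos_neg hx0 h4
    · exact h3
  have key : ∀ i, ∃ k, rep cs h w (sr k) = -sr i := by
    intro i
    set b : I → ℤ := -rep cs h w⁻¹ (sr i) with hb
    have hb0 : 0 ≤ b := by
      rw [hb]
      exact neg_nonneg.2 (h1 _ (isRoot_sr cs h i) (sr_nonneg i))
    have hbr : IsRoot cs h b := by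
      rw [hb]
      exact ((isRoot_sr cs h i).act w⁻¹).neg
    have hbw : rep cs h w b = -sr i := by
      rw [hb, map_neg, rep_apply_inv]
    have hbne : b ≠ 0 := by
      intro h0
      rw [h0, map_zero] at hbw
      have := congrFun hbw i
      rw [Pi.neg_apply, sr_self] at this
      exact absurd this (by simp)
    obtain ⟨k, hk⟩ : ∃ k, 0 < b k := by
      by_contra hcon
      push Not at hcon
      exact hbne (le_antisymm hcon hb0)
    refine ⟨k, ?_⟩
    -- `w α_k` is nonpositive with coordinates at least those of `-α_i`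
    have h3 : ∀ c, rep cs h w b c = ∑ l, b l * rep cs h w (sr l) c := by
      intro c
      conv_lhs => rw [eq_sum_sr b, map_sum, Finset.sum_apply]
      refine Finset.sum_congr rfl fun l _ => ?_
      rw [map_smul, Pi.smul_apply, smul_eq_mul]
    have hneg : ∀ l c, rep cs h w (sr l) c ≤ 0 := fun l c => h2 _ (isRoot_sr cs h l) (sr_nonneg l) c
    have h4 : ∀ c, rep cs h w b c ≤ b k * rep cs h w (sr k) c := by
      intro c
      rw [h3, ← Finset.add_sum_erase _ _ (Finset.mem_univ k)]
      have : ∑ l ∈ Finset.univ.erase k, b l * rep cs h w (sr l) c ≤ 0 :=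
        Finset.sum_nonpos fun l _ => mul_nonpos_of_nonneg_of_nonpos (hb0 l) (hneg l c)
      linarith
    have h5 : ∀ c, c ≠ i → rep cs h w (sr k) c = 0 := by
      intro c hc
      have h6 := h4 c
      rw [hbw, Pi.neg_apply, sr_ne hc, neg_zero] at h6
      have h7 := hneg k c
      nlinarith
    have h6 : rep cs h w (sr k) i = -1 := by
      have h7 := h4 i
      rw [hbw, Pi.neg_apply, sr_self] at h7
      have h8 := hneg k i
      have h9 : rep cs h w (sr k) i ≠ 0 := by
        intro h0
        have h10 : rep cs h w (sr k) = 0 := by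
          funext c
          by_cases hc : c = i
          · rw [hc]; exact h0
          · exact h5 c hc
        exact ((isRoot_sr cs h k).act w).ne_zero h10
      have h10 : rep cs h w (sr k) i ≤ -1 := by omega
      nlinarith
    funext c
    by_cases hc : c = i
    · rw [hc, h6, Pi.neg_apply, sr_self]
    · rw [h5 c hc, Pi.neg_apply, sr_ne hc, neg_zero]
  choose τ hτ using key
  refine ⟨w⁻¹, τ, fun i => ?_⟩
  have h3 := congrArg (rep cs h w⁻¹) (hτ i)
  rw [rep_inv_apply, map_neg] at h3
  rw [h3, neg_neg]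

theorem cartan_opp [Finite W] {w : W} {σ : I → I} (hσ : ∀ i, rep cs h w (sr i) = -sr (σ i)) (i j : I) :
    A (σ i) (σ j) = A i j := by
  have h1 : rep cs h (w * cs.simple i) (sr i) = sr (σ i) := by
    rw [rep_mul_apply, rep_simple_sr, map_neg, hσ, neg_neg]
  have h2 := pairing_rep h1 (rep cs h (cs.simple i) (sr j))
  have h3 : rep cs h (w * cs.simple i) (rep cs h (cs.simple i) (sr j)) = rep cs h w (sr j) := by
    rw [← rep_mul_apply, mul_assoc, cs.simple_mul_simple_self, mul_one]
  rw [h3, hσ, rep_simple_eq] at h2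
  have h4 : pairing A (σ i) (-sr (σ j)) = -A (σ i) (σ j) := by
    have e : -sr (σ j) = (-1 : ℤ) • (sr (σ j) : I → ℤ) := by rw [neg_one_smul]
    rw [e, pairing_smul, sr, pairing_single, mul_one, neg_one_mul]
  have h5 : pairing A i (sr j - pairing A i (sr j) • sr i) = - A i j := by
    have e : (sr j - pairing A i (sr j) • sr i : I → ℤ) = sr j + (-pairing A i (sr j)) • sr i := by
      rw [neg_smul, sub_eq_add_neg]
    rw [e, pairing_add, pairing_smul, sr, sr, pairing_single, pairing_single, mul_one, mul_one, h.diag]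
    ring
  rw [h4, h5] at h2
  exact neg_injective h2

theorem sigma_inj {w : W} {σ : I → I} (hσ : ∀ i, rep cs h w (sr i) = -sr (σ i)) : Function.Injective σ := by
  intro i j hij
  have h1 : rep cs h w (sr i) = rep cs h w (sr j) := by rw [hσ, hσ, hij]
  have h2 := congrArg (rep cs h w⁻¹) h1
  rw [rep_inv_apply, rep_inv_apply] at h2
  by_contra hne
  have := congrFun h2 i
  rw [sr_self, sr_ne hne] at this
  exact one_ne_zero this

end opp

section B

variable {m : ℕ} {W : Type*} [Group W] {cs : CoxeterSystem (CoxeterMatrix.B m) W} {A : Fin m → Fin m → ℤ}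
  {h : IsCartan (CoxeterMatrix.B m) A}

/-- `-1` is in the Weyl group -/
theorem exists_neg [Finite W] (hm : 3 ≤ m) : ∃ w₀ : W, ∀ x, rep cs h w₀ x = -x := by
  obtain ⟨w, σ, hσ⟩ := exists_opp cs h
  have hA := cartan_opp hσ
  have hinj := sigma_inj hσ
  -- adjacency
  have hadj : ∀ i j : Fin m, (i : ℕ) + 1 = j → (σ i : ℕ) + 1 = σ j ∨ (σ j : ℕ) + 1 = σ i := by
    intro i j hij
    have hne : i ≠ j := by rintro rfl; omega
    have hne' : (σ i : ℕ) ≠ σ j := fun e => hne (hinj (Fin.ext e))
    by_contra hcon
    push Not at hcon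
    have h0 : A i j ≠ 0 := by
      by_cases hj : (j : ℕ) + 1 < m
      · rw [(cart_adj h hij hj).1]; norm_num
      · rcases cart_last h hij (by omega) with h1 | h1 <;> rw [h1.1] <;> norm_num
    apply h0
    rw [← hA]
    rcases Nat.lt_or_gt_of_ne hne' with h1 | h1
    · exact (cart_far h (by omega)).1
    · exact (cart_far h (by omega)).2
  have hprod : ∀ i j : Fin m, (i : ℕ) + 1 = j → (A i j * A j i = 2 ↔ (j : ℕ) + 1 = m) := by
    intro i j hij
    constructor
    · intro h1
      by_contra hne
      have h2 := cart_adj h hij (by omega)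
      rw [h2.1, h2.2] at h1
      norm_num at h1
    · intro h1
      rcases cart_last h hij h1 with h2 | h2 <;> rw [h2.1, h2.2] <;> norm_num
  let a : Fin m := ⟨m - 1, by omega⟩
  let b : Fin m := ⟨m - 2, by omega⟩
  let c : Fin m := ⟨m - 3, by omega⟩
  have hba : (b : ℕ) + 1 = a := by simp only [a, b]; omega
  have hcb : (c : ℕ) + 1 = b := by simp only [c, b]; omega
  have ha1 : (a : ℕ) + 1 = m := by simp only [a]; omega
  have h2 : A b a * A a b = 2 := (hprod b a hba).2 ha1
  have h3 : σ a = a ∧ σ b = b := by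
    have h4 := hadj b a hba
    have h5 := hadj c b hcb
    have hca : (σ c : ℕ) ≠ σ a := fun e => by
      have h6 : c = a := hinj (Fin.ext e)
      have h7 := congrArg Fin.val h6
      simp only [a, c] at h7
      omega
    rcases h4 with h4 | h4
    · have h6 : (σ a : ℕ) + 1 = m := (hprod (σ b) (σ a) h4).1 (by rw [hA, hA]; exact h2)
      refine ⟨Fin.ext (by omega), Fin.ext (by omega)⟩
    · exfalso
      have h6 : (σ b : ℕ) + 1 = m := (hprod (σ a) (σ b) h4).1 (by rw [hA, hA, mul_comm]; exact h2)
      have h7 := (σ c).2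
      omega
  have h4 : ∀ d : ℕ, ∀ i : Fin m, (i : ℕ) + d + 1 = m → σ i = i := by
    intro d
    induction d using Nat.strong_induction_on with
    | _ d ih =>
      intro i hi
      rcases Nat.lt_or_ge d 1 with hd | hd
      · have : i = a := Fin.ext (by simp only [a]; omega)
        rw [this]; exact h3.1
      · rcases Nat.lt_or_ge d 2 with hd2 | hd2
        · have : i = b := Fin.ext (by simp only [b]; omega)
          rw [this]; exact h3.2
        · have h5 := ih (d - 1) (by omega) ⟨i + 1, by omega⟩ (by simp only; omega)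
          have h6 := ih (d - 2) (by omega) ⟨i + 2, by omega⟩ (by simp only; omega)
          have h7 := hadj i ⟨i + 1, by omega⟩ rfl
          rw [h5] at h7
          simp only at h7
          rcases h7 with h7 | h7
          · exact Fin.ext (by omega)
          · exfalso
            have h8 : σ i = σ ⟨i + 2, by omega⟩ := by
              rw [h6]
              exact Fin.ext (by simp only; omega)
            have h9 := congrArg Fin.val (hinj h8)
            simp only at h9
            omega
  refine ⟨w, fun x => ?_⟩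
  conv_lhs => rw [eq_sum_sr x, map_sum]
  conv_rhs => rw [eq_sum_sr x]
  rw [← Finset.sum_neg_distrib]
  refine Finset.sum_congr rfl fun i _ => ?_
  rw [map_smul, hσ, h4 (m - 1 - i) i (by omega), smul_neg]

end B

end Cfsg.Agent.H79.RIM
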