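import Cfsg.Agent.H568.RIM.Inst
import Cfsg.Agent.H521.RIM.Arith
import Cfsg.Agent.H63.Odd
import Cfsg.Agent.H68.Bounds
import Cfsg.Agent.S0292
import Cfsg.Agent.H325.RIM.Surv

/-!
# S4816, odd orthogonal groups, cross characteristic: the order and the multiplier (helper79)

* `hd_of` : the hypothesis of `H521.RIM.arith_odd`;
* `nball_of_two` : `NBall` from `NB p 2`.
-/

set_option autoImplicit false

universe u

namespace Cfsg.Agent.H79.RIM

open Cfsg Cfsg.Agent.H665.RIM

theorem hd_of {F : Type*} [Field F] [Fintype F] {m p : ℕ} (hm : 3 ≤ m) (ho : Odd (Fintype.card F)) (hp : p.Prime)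
    (hpq : ¬ p ∣ Fintype.card F) (hd : p ∣ Nat.card (POmega F (quadFormOdd m F))) :
    p ∣ ∏ i ∈ Finset.range m, (Nat.card F ^ (2 * (i + 1)) - 1) := by
  rw [Nat.card_eq_fintype_card]
  have h1 : p ∣ Fintype.card F ^ (m ^ 2) * ∏ i ∈ Finset.range m, (Fintype.card F ^ (2 * (i + 1)) - 1) := by
    rw [← S0292.result (F := F) rfl ho m hm]
    exact Dvd.dvd.mul_left hd 2
  exact (hp.dvd_mul.1 h1).resolve_left fun h2 => hpq (hp.dvd_of_dvd_pow h2)

theorem nball_of_two {T : Type u} [Group T] {p : ℕ} (hM : HasCyclicSchurMultiplier T 2) (h : NB p 2 T) : NBall p T := by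
  intro m hm hpm E _ _ π hs hc hcomm hcard l hl
  have h1 := (Cfsg.Agent.H68.Bounds.ker_of_hasCyclic hM (π := π) ⟨hs, hc, hcomm⟩).2
  rw [hcard] at h1
  have h2 : m = 2 := ((Nat.dvd_prime Nat.prime_two).1 h1).resolve_left (by omega)
  subst h2
  exact h E π hs hc hcomm hcard l hl

end Cfsg.Agent.H79.RIM
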