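import Cfsg.Agent.H79.RIM.MainB
import Cfsg.Agent.H79.RIM.OOddBase
import Cfsg.Agent.H568.RIM.ExcB

/-!
# S4816, odd orthogonal groups, cross characteristic (helper79)

* `nb2_of` : `NB p c` for `PΩ_{2m+1}(q)`, `q` odd, `c` prime to `q`, but the case `m = 3`, `p ∣ q² + q + 1`;
* `nb2_oodd` : `m ≥ 4`, or `m = 3` and `p ∤ q³ - 1`, or `p ∣ q² - 1`;
* `row_of` : the row of `H325.RIM.RowsNB`, from the case `m = 3`, `p ∣ q² + q + 1`, `q > 3`.
-/

set_option autoImplicit false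

universe u

namespace Cfsg.Agent.H79.RIM

open Cfsg Cfsg.Agent.H665.RIM CoxeterSystem Cfsg.Agent.Tits.Core Cfsg.Agent.Nodes.BNOf Cfsg.Agent.Nodes.Bruhat

theorem two_ne_of_odd {F : Type*} [Field F] [Fintype F] (ho : Odd (Fintype.card F)) : (2 : F) ≠ 0 := by
  intro h
  obtain ⟨k, hk⟩ := ho
  have h1 : ((Fintype.card F : ℕ) : F) = 0 := FiniteField.cast_card_eq_zero F
  rw [hk] at h1
  push_cast at h1
  rw [h, zero_mul, zero_add] at h1
  exact one_ne_zero h1

theorem not_char_dvd {F : Type*} [Field F] [Fintype F] (ho : Odd (Fintype.card F)) {r : ℕ} [Fact r.Prime] [CharP F r] :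
    ¬ r ∣ 2 := by
  intro h
  exact two_ne_of_odd ho (by exact_mod_cast (CharP.cast_eq_zero_iff F r 2).2 h)

/-- **The row, except `m = 3`, `p ∣ q² + q + 1`** -/
theorem nb2_of {F : Type} [Field F] [Fintype F] {m p : ℕ} (hm : 3 ≤ m) (ho : Odd (Fintype.card F)) (hp : p.Prime)
    (hpq : ¬ p ∣ Fintype.card F) (hd : p ∣ Nat.card (POmega F (quadFormOdd m F)))
    (hex : m = 3 → p ∣ Fintype.card F ^ 3 - 1 → (∀ i, 1 ≤ i → i < 3 → ¬ p ∣ Fintype.card F ^ i - 1) →
      NB p 2 (POmega F (quadFormOdd m F))) : NB p 2 (POmega F (quadFormOdd m F)) := by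
  obtain ⟨r, hr⟩ := CharP.exists F
  have hrp : Fact r.Prime := ⟨CharP.char_is_prime F r⟩
  have h2 := two_ne_of_odd ho
  obtain ⟨A, h, T, n, X, R, hW, hG, hq⟩ := H568.RIM.exists_odd (m := m) h2 (by omega) (r := r)
  have hfin : Finite (POmega F (quadFormOdd m F)) := Nat.finite_of_card_ne_zero (by
    intro h0
    have h1 := S0292.result (F := F) rfl ho m hm
    rw [h0, mul_zero] at h1
    have h3 : 1 < Fintype.card F := Fintype.one_lt_card
    have h4 : Fintype.card F ^ (m ^ 2) * ∏ i ∈ Finset.range m, (Fintype.card F ^ (2 * (i + 1)) - 1) ≠ 0 := by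
      refine mul_ne_zero (pow_ne_zero _ (by omega)) (Finset.prod_ne_zero_iff.2 fun i _ => ?_)
      have := Nat.one_lt_pow (n := 2 * (i + 1)) (by omega) h3
      omega
    exact h4 h1.symm)
  have hrc : ¬ r ∣ 2 := not_char_dvd (F := F) ho
  rcases H521.RIM.arith_odd R hG (q := Nat.card F) Nat.card_pos hm hq hp (hd_of hm ho hp hpq hd) with h1 | ⟨h1, h3, h4, h5⟩
  · obtain ⟨l, rfl⟩ : ∃ l, m = l + 1 := ⟨m - 1, by omega⟩
    exact nb_mainB (by omega) R hG hrc (fun i _ => hq i) (by simpa using h1)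
  · rcases Nat.lt_or_ge m 4 with h6 | h6
    · have h7 : m = 3 := by omega
      subst h7
      rw [Nat.card_eq_fintype_card] at h3 h4
      exact hex rfl h3 h4
    · exact H568.RIM.nb_excB' h6 R hG hrc h5

theorem nb2_oodd {F : Type} [Field F] [Fintype F] {m p : ℕ} (hm : 3 ≤ m) (ho : Odd (Fintype.card F)) (hp : p.Prime)
    (hpq : ¬ p ∣ Fintype.card F) (hd : p ∣ Nat.card (POmega F (quadFormOdd m F)))
    (hex : m = 3 → ¬ p ∣ Fintype.card F ^ 3 - 1 ∨ p ∣ Fintype.card F ^ 2 - 1) : NB p 2 (POmega F (quadFormOdd m F)) :=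
  nb2_of hm ho hp hpq hd fun h1 h2 h3 => by
    rcases hex h1 with h4 | h4
    · exact absurd h2 h4
    · exact absurd h4 (h3 2 (by norm_num) (by norm_num))

/-- the remaining case -/
def Three : Prop :=
  ∀ (F : Type) [Field F] [Fintype F] (p : ℕ), p.Prime → Odd (Fintype.card F) → 3 < Fintype.card F →
    p ∣ Fintype.card F ^ 3 - 1 → (∀ i, 1 ≤ i → i < 3 → ¬ p ∣ Fintype.card F ^ i - 1) →
    NB p 2 (POmega F (quadFormOdd 3 F))

open Cfsg.Agent.H325.RIM Cfsg.Agent.OrdDiv Cfsg.Agent.H436 in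
/-- **The row.** -/
theorem row_of (H : Three) (p m q : ℕ) (hp : p.Prime) (hpq : ¬ p ∣ q) (hex : ¬ (m = 3 ∧ q = 3)) :
    NBRow p (.oodd m q) := by
  intro S _ _ hg hd
  obtain ⟨F, _, _, rfl, ⟨e⟩⟩ := hg.real
  obtain ⟨hm, ho, -⟩ := hg.cond
  have h3 : m = 3 → 3 < Fintype.card F := by
    intro h
    have h1 : 1 < Fintype.card F := Fintype.one_lt_card
    obtain ⟨k, hk⟩ := ho
    have h2 : Fintype.card F ≠ 3 := fun h2 => hex ⟨h, h2⟩
    omega
  rw [Nat.card_congr e.toEquiv] at hd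
  refine NBall.congr e (nball_of_two (H63.Odd.main_zero (two_ne_of_odd ho) hm fun h => ?_) (nb2_of hm ho hp hpq hd ?_))
  · rw [Nat.card_eq_fintype_card]
    exact h3 h
  · rintro rfl h1 h2
    exact H F p hp ho (h3 rfl) h1 h2

end Cfsg.Agent.H79.RIM
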